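import Mathlib
import Cfsg.Agent.H125.Hall.E6Base

/-!
# S2223, the row `²E₆(q)`, `q ≡ 3 mod 8` (helper813, task HALLPRO2 E-9)
-/

set_option autoImplicit false

namespace Cfsg.Agent.H813.Hall.E6Three

open Cfsg.Lie Cfsg.Agent.ChevalleyStructure.E6Min.Tables Cfsg.Agent.ChevalleyStructure.E6Min.Basic
  Cfsg.Agent.ChevalleyStructure.E6Min.Torus Cfsg.Agent.ChevalleyStructure.E6Min.Checks2 Cfsg.Agent.H125.Hall.E6
  Cfsg.Agent.H125.Hall
open scoped Matrix

section mono

variable {K : Type*} [Field K]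

/-- monomial (row) matrices -/
def mono (K : Type*) [Field K] (f : ℕ → ℕ) (s : ℕ → ℤ) : Matrix I27 I27 K :=
  Matrix.of fun x y => if y = dec (f (code x)) then ((s (code x) : ℤ) : K) else 0

theorem mono_apply (f : ℕ → ℕ) (s : ℕ → ℤ) (x y : I27) :
    mono K f s x y = if y = dec (f (code x)) then ((s (code x) : ℤ) : K) else 0 := rfl

theorem Nm_eq_mono (r : ℕ) : Nm K r = mono K (srN r) (sgN r) := rfl

theorem mono_mul {f g : ℕ → ℕ} {s t : ℕ → ℤ} (hf : ∀ j, j < 27 → f j < 27) :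
    mono K f s * mono K g t = mono K (fun j => g (f j)) (fun j => s j * t (f j)) := by
  ext x y
  rw [Matrix.mul_apply, Finset.sum_eq_single (dec (f (code x)))]
  · rw [mono_apply, if_pos rfl, mono_apply, mono_apply, code_dec (hf _ (code_lt x))]
    split_ifs
    · push_cast; rfl
    · rw [mul_zero]
  · intro z _ hz
    rw [mono_apply, if_neg hz, zero_mul]
  · intro h
    exact absurd (Finset.mem_univ _) h

/-- equality test -/
def mchk (f : ℕ → ℕ) (s : ℕ → ℤ) (g : ℕ → ℕ) (t : ℕ → ℤ) : Bool :=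
  allLt 27 fun j => (s j == t j) && ((s j == 0) || (f j == g j))

theorem mono_eq {f g : ℕ → ℕ} {s t : ℕ → ℤ} (h : mchk f s g t = true) : mono K f s = mono K g t := by
  ext x y
  have h1 := allLt_spec h (code x) (code_lt x)
  simp only [Bool.and_eq_true, Bool.or_eq_true, beq_iff_eq] at h1
  rw [mono_apply, mono_apply, h1.1]
  rcases h1.2 with h2 | h2
  · rw [← h1.1, h2]
    simp
  · rw [h2]

/-- rows of `n_r(1)` -/
def nf (r j : ℕ) : ℕ := if sgN r j == 0 then (if sgN (71 - r) j == 0 then j else srN (71 - r) j) else srN r j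

/-- entries of `n_r(1)` -/
def ns (r j : ℕ) : ℤ := if sgN r j == 0 then (if sgN (71 - r) j == 0 then 1 else - sgN (71 - r) j) else sgN r j

theorem n_eq {r : ℕ} (hr : r < 72) :
    zM r (1 : K) * zM (71 - r) (-1) * zM r 1 = mono K (nf r) (ns r) := by
  have h := nM_eq (F := K) hr one_ne_zero
  rw [inv_one] at h
  rw [h, Nm_mul_opp hr, Nm_opp_mul hr]
  ext x y
  simp only [Matrix.sub_apply, Matrix.add_apply, Matrix.smul_apply, Matrix.diagonal_apply, Matrix.one_apply,
    smul_eq_mul, one_mul, Nm_apply, mono_apply]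
  have hopp : ∀ {r : ℕ}, r < 72 → sg r x ≠ 0 → sg (71 - r) x = 0 ∧ sr r x ≠ x := by
    intro r hr hx
    obtain ⟨h1, h2, h3⟩ := row_opp hr hx
    refine ⟨h3, fun h4 => ?_⟩
    rw [h4, h3, mul_zero] at h2
    exact zero_ne_one h2
  by_cases h1 : sg r x = 0
  · have e1 : sgN r (code x) = 0 := h1
    by_cases h2 : sg (71 - r) x = 0
    · have e2 : sgN (71 - r) (code x) = 0 := h2
      have e3 : nf r (code x) = code x := by simp [nf, e1, e2]
      have e4 : ns r (code x) = 1 := by simp [ns, e1, e2]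
      rw [e3, e4, dec_code, h1, h2, ind_of_eq h1, ind_of_eq h2]
      by_cases hxy : x = y
      · subst hxy; simp
      · rw [if_neg hxy, if_neg (Ne.symm hxy)]; simp
    · have e2 : sgN (71 - r) (code x) ≠ 0 := h2
      obtain ⟨-, h4⟩ := hopp (r := 71 - r) (by omega) h2
      have e3 : nf r (code x) = srN (71 - r) (code x) := by simp [nf, e1, e2]
      have e4 : ns r (code x) = -sgN (71 - r) (code x) := by simp [ns, e1, e2]
      rw [e3, e4, h1, ind_of_eq h1, ind_of_ne h2]
      by_cases hxy : y = sr (71 - r) x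
      · have e5 : y = dec (srN (71 - r) (code x)) := hxy
        rw [if_pos e5, if_pos hxy, if_neg (fun h => h4 (hxy.symm.trans h.symm)),
          if_neg (fun h => h4 (hxy.symm.trans h.symm)), if_neg (fun h => h4 (hxy.symm.trans h.symm))]
        simp [sg]
      · have e5 : ¬ y = dec (srN (71 - r) (code x)) := hxy
        rw [if_neg e5, if_neg hxy]
        by_cases h5 : x = y
        · rw [if_pos h5, if_pos h5, if_pos h5]; simp
        · rw [if_neg h5, if_neg h5, if_neg h5]; simp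
  · have e1 : sgN r (code x) ≠ 0 := h1
    obtain ⟨h2, h4⟩ := hopp hr h1
    have e3 : nf r (code x) = srN r (code x) := by simp [nf, e1]
    have e4 : ns r (code x) = sgN r (code x) := by simp [ns, e1]
    rw [e3, e4, h2, ind_of_ne h1, ind_of_eq h2]
    by_cases hxy : y = sr r x
    · have e5 : y = dec (srN r (code x)) := hxy
      rw [if_pos e5, if_pos hxy, if_neg (fun h => h4 (hxy.symm.trans h.symm)),
        if_neg (fun h => h4 (hxy.symm.trans h.symm)), if_neg (fun h => h4 (hxy.symm.trans h.symm))]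
      simp [sg]
    · have e5 : ¬ y = dec (srN r (code x)) := hxy
      rw [if_neg e5, if_neg hxy]
      by_cases h5 : x = y
      · rw [if_pos h5, if_pos h5, if_pos h5]; simp
      · rw [if_neg h5, if_neg h5, if_neg h5]; simp

theorem nf_lt {r : ℕ} (hr : r < 72) : ∀ j, j < 27 → nf r j < 27 := by
  intro j hj
  unfold nf
  split_ifs
  · exact hj
  · exact srN_lt (by omega) hj
  · exact srN_lt hr hj

/-- the element `n_r(1)` -/
def nG (K : Type*) [Field K] (r : ℕ) : GL I27 K := zU r 1 * zU (71 - r) (-1) * zU r 1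

theorem coe_nG {r : ℕ} (hr : r < 72) : ((nG K r : GL I27 K) : Matrix I27 I27 K) = mono K (nf r) (ns r) := by
  unfold nG
  rw [Units.val_mul, Units.val_mul, coe_zU hr, coe_zU (by omega), n_eq hr]

theorem coe_nG_mul {r s : ℕ} (hr : r < 72) (hs : s < 72) : ((nG K r * nG K s : GL I27 K) : Matrix I27 I27 K) =
    mono K (fun j => nf s (nf r j)) (fun j => ns r j * ns s (nf r j)) := by
  rw [Units.val_mul, coe_nG hr, coe_nG hs, mono_mul (nf_lt hr)]

/-- test for `n_r n_s N_b = N_c n_r n_s` -/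
def cchk (r s b c : ℕ) : Bool :=
  mchk (fun j => srN b (nf s (nf r j))) (fun j => ns r j * ns s (nf r j) * sgN b (nf s (nf r j)))
    (fun j => nf s (nf r (srN c j))) (fun j => sgN c j * (ns r (srN c j) * ns s (nf r (srN c j))))

theorem conj_eq {r s b c : ℕ} (hr : r < 72) (hs : s < 72) (hc : c < 72) (h : cchk r s b c = true) :
    ((nG K r * nG K s : GL I27 K) : Matrix I27 I27 K) * Nm K b =
      Nm K c * ((nG K r * nG K s : GL I27 K) : Matrix I27 I27 K) := by
  rw [coe_nG_mul hr hs, Nm_eq_mono, Nm_eq_mono, mono_mul (fun j hj => nf_lt hs _ (nf_lt hr j hj)),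
    mono_mul (fun j hj => srN_lt hc hj)]
  exact mono_eq h

/-- conjugation of `Ph` -/
theorem nrm_of (k0 : Subfield K) {y : Matrix I27 I27 K} {l m : Fin 4}
    (h : (y * Nm K (bI l) = Nm K (bI m) * y ∧ y * Nm K (71 - bI l) = Nm K (71 - bI m) * y) ∨
      (y * Nm K (bI l) = Nm K (71 - bI m) * y ∧ y * Nm K (71 - bI l) = Nm K (bI m) * y)) :
    ∀ A, SlIn k0 A → ∃ A', SlIn k0 A' ∧ y * Ph l A = Ph m A' * y := by
  intro A hA
  rcases h with ⟨h1, h2⟩ | ⟨h1, h2⟩
  · refine ⟨A, hA, ?_⟩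
    have e1 : y * (Nm K (bI l) * Nm K (71 - bI l)) = Nm K (bI m) * Nm K (71 - bI m) * y := by
      rw [← mul_assoc, h1, mul_assoc, h2, mul_assoc]
    have e2 : y * (Nm K (71 - bI l) * Nm K (bI l)) = Nm K (71 - bI m) * Nm K (bI m) * y := by
      rw [← mul_assoc, h2, mul_assoc, h1, mul_assoc]
    simp only [Ph, mul_add, add_mul, mul_one, one_mul, Matrix.mul_smul, Matrix.smul_mul, e1, e2, h1, h2]
  · refine ⟨!![A 1 1, A 1 0; A 0 1, A 0 0], ⟨?_, ?_⟩, ?_⟩
    · have := hA.1
      rw [Matrix.det_fin_two] at this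
      rw [Matrix.det_fin_two_of]
      linear_combination this
    · intro i j
      fin_cases i <;> fin_cases j
      · exact hA.2 1 1
      · exact hA.2 1 0
      · exact hA.2 0 1
      · exact hA.2 0 0
    · have e1 : y * (Nm K (bI l) * Nm K (71 - bI l)) = Nm K (71 - bI m) * Nm K (bI m) * y := by
        rw [← mul_assoc, h1, mul_assoc, h2, mul_assoc]
      have e2 : y * (Nm K (71 - bI l) * Nm K (bI l)) = Nm K (bI m) * Nm K (71 - bI m) * y := by
        rw [← mul_assoc, h2, mul_assoc, h1, mul_assoc]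
      simp only [Ph, mul_add, add_mul, mul_one, one_mul, Matrix.mul_smul, Matrix.smul_mul, e1, e2, h1, h2,
        Matrix.of_apply, Matrix.cons_val', Matrix.cons_val_zero, Matrix.cons_val_one, Matrix.cons_val_fin_one]
      abel

theorem chk_v : cchk 46 53 39 27 = true ∧ cchk 46 53 32 44 = true ∧ cchk 46 53 44 32 = true ∧
    cchk 46 53 27 39 = true ∧ cchk 46 53 60 71 = true ∧ cchk 46 53 11 0 = true ∧ cchk 46 53 71 60 = true ∧
    cchk 46 53 0 11 = true := by decide +kernel

theorem chk_w : cchk 46 65 39 11 = true ∧ cchk 46 65 32 60 = true ∧ cchk 46 65 44 71 = true ∧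
    cchk 46 65 27 0 = true ∧ cchk 46 65 60 32 = true ∧ cchk 46 65 11 39 = true ∧ cchk 46 65 71 44 = true ∧
    cchk 46 65 0 27 = true := by decide +kernel

theorem nrm_v (k0 : Subfield K) : Nrm k0 ![1, 0, 3, 2] (nG K 46 * nG K 53) := by
  obtain ⟨h1, h2, h3, h4, h5, h6, h7, h8⟩ := chk_v
  intro l
  fin_cases l
  · exact nrm_of k0 (l := 0) (m := 1) (Or.inr ⟨conj_eq (by norm_num) (by norm_num) (by decide) h1,
      conj_eq (by norm_num) (by norm_num) (by decide) h2⟩)
  · exact nrm_of k0 (l := 1) (m := 0) (Or.inr ⟨conj_eq (by norm_num) (by norm_num) (by decide) h3,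
      conj_eq (by norm_num) (by norm_num) (by decide) h4⟩)
  · exact nrm_of k0 (l := 2) (m := 3) (Or.inl ⟨conj_eq (by norm_num) (by norm_num) (by decide) h5,
      conj_eq (by norm_num) (by norm_num) (by decide) h6⟩)
  · exact nrm_of k0 (l := 3) (m := 2) (Or.inl ⟨conj_eq (by norm_num) (by norm_num) (by decide) h7,
      conj_eq (by norm_num) (by norm_num) (by decide) h8⟩)

theorem nrm_w (k0 : Subfield K) : Nrm k0 ![2, 3, 0, 1] (nG K 46 * nG K 65) := by
  obtain ⟨h1, h2, h3, h4, h5, h6, h7, h8⟩ := chk_w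
  intro l
  fin_cases l
  · exact nrm_of k0 (l := 0) (m := 2) (Or.inr ⟨conj_eq (by norm_num) (by norm_num) (by decide) h1,
      conj_eq (by norm_num) (by norm_num) (by decide) h2⟩)
  · exact nrm_of k0 (l := 1) (m := 3) (Or.inl ⟨conj_eq (by norm_num) (by norm_num) (by decide) h3,
      conj_eq (by norm_num) (by norm_num) (by decide) h4⟩)
  · exact nrm_of k0 (l := 2) (m := 0) (Or.inr ⟨conj_eq (by norm_num) (by norm_num) (by decide) h5,
      conj_eq (by norm_num) (by norm_num) (by decide) h6⟩)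
  · exact nrm_of k0 (l := 3) (m := 1) (Or.inl ⟨conj_eq (by norm_num) (by norm_num) (by decide) h7,
      conj_eq (by norm_num) (by norm_num) (by decide) h8⟩)

end mono

section diag

variable {K : Type*} [Field K]

/-- the exponents of the diagonal elements -/
def eK (a b c d : ℤ) (j : ℕ) : ℤ := a * lbN j 0 + b * lbN j 5 + (c * lbN j 2 + d * lbN j 4)

/-- the diagonal element -/
def yG (K : Type*) [Field K] (i : K) (a b c d : ℤ) : GL I27 K :=
  hU 0 (i ^ a) * hU 5 (i ^ b) * (hU 2 (i ^ c) * hU 4 (i ^ d))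

theorem coe_yG {i : K} (hi : i ≠ 0) (a b c d : ℤ) : ((yG K i a b c d : GL I27 K) : Matrix I27 I27 K) =
    Matrix.diagonal fun x => i ^ eK a b c d (code x) := by
  unfold yG
  rw [Units.val_mul, Units.val_mul, Units.val_mul, coe_hU (by norm_num) (zpow_ne_zero _ hi),
    coe_hU (by norm_num) (zpow_ne_zero _ hi), coe_hU (by norm_num) (zpow_ne_zero _ hi),
    coe_hU (by norm_num) (zpow_ne_zero _ hi), Matrix.diagonal_mul_diagonal, Matrix.diagonal_mul_diagonal,
    Matrix.diagonal_mul_diagonal]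
  congr 1
  funext x
  unfold eK wt
  rw [← zpow_mul, ← zpow_mul, ← zpow_mul, ← zpow_mul, ← zpow_add₀ hi, ← zpow_add₀ hi, ← zpow_add₀ hi]

theorem zpow_congr {i : K} (hi : i * i = -1) {m n : ℤ} (h : (m - n) % 4 = 0) : i ^ m = i ^ n := by
  have hi0 : i ≠ 0 := by
    rintro rfl
    rw [zero_mul] at hi
    exact one_ne_zero (neg_eq_zero.1 hi.symm)
  have h4 : i ^ (4 : ℤ) = 1 := by
    have : i ^ (4 : ℤ) = (i * i) * (i * i) := by
      rw [show (4 : ℤ) = ((4 : ℕ) : ℤ) by norm_num, zpow_natCast]; ring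
    rw [this, hi]; ring
  obtain ⟨k, hk⟩ := Int.dvd_of_emod_eq_zero h
  have h5 : m = n + 4 * k := by omega
  rw [h5, zpow_add₀ hi0, zpow_mul, h4, one_zpow, mul_one]

/-- test: the diagonal element commutes with `N_r` -/
def dchk (a b c d : ℤ) (r : ℕ) : Bool :=
  allLt 27 fun j => (sgN r j == 0) || ((eK a b c d j - eK a b c d (srN r j)) % 4 == 0)

theorem diag_comm {i : K} (hi : i * i = -1) (hi0 : i ≠ 0) {a b c d : ℤ} {r : ℕ} (hr : r < 72)
    (h : dchk a b c d r = true) :
    ((yG K i a b c d : GL I27 K) : Matrix I27 I27 K) * Nm K r =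
      Nm K r * ((yG K i a b c d : GL I27 K) : Matrix I27 I27 K) := by
  rw [coe_yG hi0]
  ext x y
  rw [Matrix.diagonal_mul, Matrix.mul_diagonal, Nm_apply]
  have h1 := allLt_spec h (code x) (code_lt x)
  simp only [Bool.or_eq_true, beq_iff_eq] at h1
  rcases h1 with h1 | h1
  · have h2 : sg r x = 0 := h1
    rw [h2]; simp
  · by_cases hy : y = sr r x
    · subst hy
      rw [if_pos rfl, code_sr hr, zpow_congr hi h1, mul_comm]
    · rw [if_neg hy]; simp

theorem Ph_comm {i : K} (hi : i * i = -1) (hi0 : i ≠ 0) {a b c d : ℤ}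
    (h : ∀ l : Fin 4, dchk a b c d (bI l) = true ∧ dchk a b c d (71 - bI l) = true) (l : Fin 4)
    (A : Matrix (Fin 2) (Fin 2) K) :
    ((yG K i a b c d : GL I27 K) : Matrix I27 I27 K) * Ph l A =
      Ph l A * ((yG K i a b c d : GL I27 K) : Matrix I27 I27 K) := by
  have hb : bI l < 72 := by fin_cases l <;> decide
  have h1 := diag_comm hi hi0 hb (h l).1
  have h2 := diag_comm hi hi0 (show 71 - bI l < 72 by omega) (h l).2
  generalize ((yG K i a b c d : GL I27 K) : Matrix I27 I27 K) = y at *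
  have e1 : y * (Nm K (bI l) * Nm K (71 - bI l)) = Nm K (bI l) * Nm K (71 - bI l) * y := by
    rw [← mul_assoc, h1, mul_assoc, h2, mul_assoc]
  have e2 : y * (Nm K (71 - bI l) * Nm K (bI l)) = Nm K (71 - bI l) * Nm K (bI l) * y := by
    rw [← mul_assoc, h2, mul_assoc, h1, mul_assoc]
  simp only [Ph, mul_add, add_mul, mul_one, one_mul, Matrix.mul_smul, Matrix.smul_mul, e1, e2, h1, h2]

theorem Ph_neg_one (l : Fin 4) : (Ph l (-1) : Matrix I27 I27 K) =
    Matrix.diagonal fun x => ((1 - 2 * indN (bI l) (code x) - 2 * indN (71 - bI l) (code x) : ℤ) : K) := by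
  have hb : bI l < 72 := by fin_cases l <;> decide
  unfold Ph
  rw [Nm_mul_opp hb, Nm_opp_mul hb]
  ext x y
  simp only [Matrix.add_apply, Matrix.smul_apply, Matrix.diagonal_apply, Matrix.one_apply, smul_eq_mul,
    Matrix.neg_apply]
  by_cases hxy : x = y
  · subst hxy
    simp only [if_true, ind]
    push_cast
    simp
    ring
  · simp [hxy]

/-- test: the square of the diagonal element is `z_0 z_k` -/
def qchk (a b c d : ℤ) (k : Fin 4) : Bool :=
  allLt 27 fun j => (if eK a b c d j % 2 == 0 then (1 : ℤ) else -1) ==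
    (1 - 2 * indN (bI 0) j - 2 * indN (71 - bI 0) j) * (1 - 2 * indN (bI k) j - 2 * indN (71 - bI k) j)

theorem diag_sq {i : K} (hi : i * i = -1) (hi0 : i ≠ 0) {a b c d : ℤ} {k : Fin 4} (h : qchk a b c d k = true) :
    ((yG K i a b c d : GL I27 K) : Matrix I27 I27 K) ^ 2 = Ph 0 (-1) * Ph k (-1) := by
  rw [coe_yG hi0, pow_two, Matrix.diagonal_mul_diagonal, Ph_neg_one, Ph_neg_one, Matrix.diagonal_mul_diagonal]
  congr 1
  funext x
  have h1 := allLt_spec h (code x) (code_lt x)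
  rw [beq_iff_eq] at h1
  rw [← Int.cast_mul, ← h1, ← zpow_add₀ hi0]
  split_ifs with h2
  · rw [beq_iff_eq] at h2
    rw [zpow_congr hi (n := 0) (by omega), zpow_zero]
    norm_num
  · rw [beq_iff_eq] at h2
    rw [zpow_congr hi (n := 2) (by omega)]
    rw [show (2 : ℤ) = ((2 : ℕ) : ℤ) by norm_num, zpow_natCast, pow_two, hi]
    norm_num

/-- test: all entries but one are `-1` or `-i` -/
def rchk (a b c d : ℤ) (x₀ : ℕ) : Bool :=
  allLt 27 fun j => (j == x₀) || ((eK a b c d j - 2) % 4 == 0) || ((eK a b c d j - 3) % 4 == 0)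

theorem diag_rank {i : K} (hi : i * i = -1) (hi0 : i ≠ 0) {a b c d : ℤ} {x₀ : ℕ} (h : rchk a b c d x₀ = true) :
    ∃ P : Polynomial K, P ≠ 0 ∧ P.natDegree ≤ 2 ∧
      Module.finrank K (LinearMap.range (Polynomial.aeval
        ((((yG K i a b c d : GL I27 K) : Matrix I27 I27 K)).mulVecLin) P)) ≤ 1 := by
  refine ⟨(Polynomial.X + Polynomial.C 1) * (Polynomial.X + Polynomial.C i),
    mul_ne_zero (Polynomial.X_add_C_ne_zero _) (Polynomial.X_add_C_ne_zero _), ?_, ?_⟩
  · refine (Polynomial.natDegree_mul_le).trans ?_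
    rw [Polynomial.natDegree_X_add_C, Polynomial.natDegree_X_add_C]
  · have key : ∀ v : I27 → K, (Polynomial.aeval ((((yG K i a b c d : GL I27 K) : Matrix I27 I27 K)).mulVecLin)
        ((Polynomial.X + Polynomial.C 1) * (Polynomial.X + Polynomial.C i))) v =
        fun x => (i ^ eK a b c d (code x) + 1) * ((i ^ eK a b c d (code x) + i) * v x) := by
      intro v
      rw [map_mul, map_add, map_add, Polynomial.aeval_X, Polynomial.aeval_C, Polynomial.aeval_C, coe_yG hi0]
      funext x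
      simp only [Module.End.mul_apply, LinearMap.add_apply, Module.algebraMap_end_apply, Pi.add_apply,
        Matrix.mulVecLin_apply, Matrix.mulVec_diagonal, Pi.smul_apply, smul_eq_mul, one_mul]
      ring
    have hle : LinearMap.range (Polynomial.aeval ((((yG K i a b c d : GL I27 K) : Matrix I27 I27 K)).mulVecLin)
        ((Polynomial.X + Polynomial.C 1) * (Polynomial.X + Polynomial.C i))) ≤
        Submodule.span K {(Pi.single (dec x₀) 1 : I27 → K)} := by
      rintro _ ⟨v, rfl⟩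
      rw [key, Submodule.mem_span_singleton]
      refine ⟨(i ^ eK a b c d (code (dec x₀)) + 1) * ((i ^ eK a b c d (code (dec x₀)) + i) * v (dec x₀)), ?_⟩
      funext x
      rw [Pi.smul_apply, smul_eq_mul]
      by_cases hx : x = dec x₀
      · subst hx
        rw [Pi.single_eq_same, mul_one]
      · rw [Pi.single_eq_of_ne hx, mul_zero]
        have h1 := allLt_spec h (code x) (code_lt x)
        simp only [Bool.or_eq_true, beq_iff_eq] at h1
        rcases h1 with (h1 | h1) | h1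
        · exact absurd (by rw [← h1, dec_code]) hx
        · rw [zpow_congr hi h1, show (2 : ℤ) = ((2 : ℕ) : ℤ) by norm_num, zpow_natCast, pow_two, hi]
          ring
        · rw [zpow_congr hi h1, show (3 : ℤ) = ((3 : ℕ) : ℤ) by norm_num, zpow_natCast, pow_succ, pow_two, hi]
          ring
    refine (Submodule.finrank_mono hle).trans ?_
    rw [finrank_span_singleton]
    intro h0
    have := congrFun h0 (dec x₀)
    rw [Pi.single_eq_same] at this
    exact one_ne_zero this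

theorem dchk_all : (∀ l : Fin 4, dchk 2 2 3 1 (bI l) = true ∧ dchk 2 2 3 1 (71 - bI l) = true) ∧
    (∀ l : Fin 4, dchk 1 3 3 1 (bI l) = true ∧ dchk 1 3 3 1 (71 - bI l) = true) ∧
    (∀ l : Fin 4, dchk 1 3 2 2 (bI l) = true ∧ dchk 1 3 2 2 (71 - bI l) = true) := by
  decide +kernel

theorem qchk_all : qchk 2 2 3 1 1 = true ∧ qchk 1 3 3 1 2 = true ∧ qchk 1 3 2 2 3 = true := by
  decide +kernel

theorem rchk_all : rchk 2 2 3 1 0 = true ∧ rchk 1 3 3 1 4 = true ∧ rchk 1 3 2 2 8 = true := by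
  decide +kernel

end diag

theorem Z2_le (K : Type*) [Field K] (q : ℕ) : Z2 K q ≤ Zgrp K := by
  unfold Z2
  rw [Subgroup.closure_le]
  rintro g (⟨t, -, r, -, rfl⟩ | ⟨t, rs, -, rfl⟩)
  · exact zU_mem r t
  · exact mul_mem (zU_mem _ _) (zU_mem _ _)

/-- the statement of `coreRow_b` -/
def StB : Prop := ∀ {K : Type} [Field K] [Finite K] {p : ℕ} [Fact p.Prime] [CharP K p] (_ : p ≠ 2)
    {G : Subgroup (GL I27 K)} (_ : G ≤ Zgrp K) {k0 : Subfield K} (_ : FrIn G k0)
    (_ : ∃ v ∈ G, Nrm k0 ![1, 0, 3, 2] v) (_ : ∃ w ∈ G, Nrm k0 ![2, 3, 0, 1] w)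
    (_ : ∀ k : Fin 4, k ≠ 0 → ∃ y ∈ G, (∀ l A, A.det = 1 → (y : Matrix I27 I27 K) * Ph l A = Ph l A * (y : Matrix I27 I27 K)) ∧
      (y : Matrix I27 I27 K) ^ 2 = Ph 0 (-1) * Ph k (-1) ∧
      ∃ P : Polynomial K, P ≠ 0 ∧ P.natDegree ≤ 2 ∧
        Module.finrank K (LinearMap.range (Polynomial.aeval ((y : Matrix I27 I27 K).mulVecLin) P)) ≤ 1),
    CoreRow p ↥G

/-- the statement of `frame_mem_Z2` -/
def StF : Prop := ∀ {K : Type} [Field K] {q : ℕ} [Finite K] (_ : Nat.card K = q ^ 2) {t : K} (_ : t ^ q = t) {r : ℕ}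
    (_ : r ∈ [39, 44, 60, 71, 46, 53, 65, 69, 32, 27, 11, 0, 25, 18, 6, 2]), zU r t ∈ Z2 K q

/-- the statement of `torus_mem_Z2` -/
def StT : Prop := ∀ {K : Type} [Field K] {q : ℕ} {c : K} (_ : c ≠ 0),
    hU 0 c * hU 5 (c ^ q) ∈ Z2 K q ∧ hU 2 c * hU 4 (c ^ q) ∈ Z2 K q

theorem coreRow_2e6_three_of (hB : StB) (hF : StF) (hT : StT) {F : Type} [Field F] [Fintype F] {p q : ℕ}
    [Fact p.Prime] [CharP F p] (hq : Fintype.card F = q ^ 2) (h8 : q % 8 = 3) : CoreRow p (Z2 F q) := by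
  have hpp : p.Prime := Fact.out
  obtain ⟨n, -, hn⟩ := FiniteField.card F p
  have hqd : q ∣ p ^ (n : ℕ) := by rw [← hn, hq, pow_two]; exact dvd_mul_right q q
  obtain ⟨k, -, hk⟩ := (Nat.dvd_prime_pow hpp).1 hqd
  have hp2 : p ≠ 2 := by
    rintro rfl
    rcases Nat.eq_zero_or_pos k with h0 | h0
    · rw [hk, h0, pow_zero] at h8
      norm_num at h8
    · have : 2 ∣ q := by rw [hk]; exact dvd_pow_self 2 h0.ne'
      omega
  have hcard : Nat.card F = q ^ 2 := by rw [Nat.card_eq_fintype_card, hq]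
  -- the square root of `-1`
  have hsq : IsSquare (-1 : F) := by
    rw [FiniteField.isSquare_neg_one_iff, hq, Nat.pow_mod]
    have : q % 4 = 3 := by omega
    rw [this]
    norm_num
  obtain ⟨i, hi⟩ := hsq
  replace hi := hi.symm
  have hi0 : i ≠ 0 := by
    rintro rfl
    rw [zero_mul] at hi
    exact one_ne_zero (neg_eq_zero.1 hi.symm)
  have hiq : i ^ q = i ^ (3 : ℤ) := by
    rw [← zpow_natCast i q]
    exact zpow_congr hi (by omega)
  have hpw : ∀ {a b : ℤ}, (3 * a - b) % 4 = 0 → (i ^ a) ^ q = i ^ b := by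
    intro a b hab
    rw [← zpow_natCast (i ^ a) q, ← zpow_mul, mul_comm, zpow_mul, zpow_natCast, hiq, ← zpow_mul]
    exact zpow_congr hi hab
  have hmem : ∀ {a b c d : ℤ}, (3 * a - b) % 4 = 0 → (3 * c - d) % 4 = 0 → yG F i a b c d ∈ Z2 F q := by
    intro a b c d h1 h2
    have h3 := (hT (K := F) (q := q) (c := i ^ a) (zpow_ne_zero _ hi0)).1
    have h4 := (hT (K := F) (q := q) (c := i ^ c) (zpow_ne_zero _ hi0)).2
    rw [hpw h1] at h3
    rw [hpw h2] at h4
    exact mul_mem h3 h4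
  have hone : ∀ r ∈ [39, 44, 60, 71, 46, 53, 65, 69, 32, 27, 11, 0, 25, 18, 6, 2],
      zU r (1 : F) ∈ Z2 F q ∧ zU r (-1 : F) ∈ Z2 F q := by
    intro r hr
    refine ⟨hF hcard (one_pow q) hr, hF hcard ?_ hr⟩
    have : Odd q := Nat.odd_iff.2 (by omega)
    exact this.neg_one_pow
  have hnG : ∀ r, r ∈ [39, 44, 60, 71, 46, 53, 65, 69, 32, 27, 11, 0, 25, 18, 6, 2] →
      71 - r ∈ [39, 44, 60, 71, 46, 53, 65, 69, 32, 27, 11, 0, 25, 18, 6, 2] → nG F r ∈ Z2 F q := by
    intro r hr hr'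
    exact mul_mem (mul_mem (hone r hr).1 (hone _ hr').2) (hone r hr).1
  obtain ⟨d1, d2, d3⟩ := dchk_all
  obtain ⟨q1, q2, q3⟩ := qchk_all
  obtain ⟨r1, r2, r3⟩ := rchk_all
  refine hB hp2 (Z2_le F q) (k0 := (iterateFrobenius F p k).eqLocusField (RingHom.id F)) ?_
    ⟨_, mul_mem (hnG 46 (by decide) (by decide)) (hnG 53 (by decide) (by decide)), nrm_v _⟩
    ⟨_, mul_mem (hnG 46 (by decide) (by decide)) (hnG 65 (by decide) (by decide)), nrm_w _⟩ ?_
  · intro l t ht
    have ht' : t ^ q = t := by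
      have h1 : iterateFrobenius F p k t = t := ht
      rw [iterateFrobenius_def, ← hk] at h1
      exact h1
    fin_cases l
    · exact ⟨hF hcard ht' (by decide), hF hcard ht' (by decide)⟩
    · exact ⟨hF hcard ht' (by decide), hF hcard ht' (by decide)⟩
    · exact ⟨hF hcard ht' (by decide), hF hcard ht' (by decide)⟩
    · exact ⟨hF hcard ht' (by decide), hF hcard ht' (by decide)⟩
  · intro l hl
    fin_cases l
    · exact absurd rfl hl
    · exact ⟨yG F i 2 2 3 1, hmem (by norm_num) (by norm_num), fun l A _ => Ph_comm hi hi0 d1 l A,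
        diag_sq hi hi0 q1, diag_rank hi hi0 r1⟩
    · exact ⟨yG F i 1 3 3 1, hmem (by norm_num) (by norm_num), fun l A _ => Ph_comm hi hi0 d2 l A,
        diag_sq hi hi0 q2, diag_rank hi hi0 r2⟩
    · exact ⟨yG F i 1 3 2 2, hmem (by norm_num) (by norm_num), fun l A _ => Ph_comm hi hi0 d3 l A,
        diag_sq hi hi0 q3, diag_rank hi hi0 r3⟩

end Cfsg.Agent.H813.Hall.E6Three
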