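import Cfsg.Agent.H125.Hall.CoreRow

/-!
# S2223, N4: `CoreRow` for `SL_4` and `SU_4` (helper813)

`T` is the extraspecial group of order `32` generated by `X ⊗ 1`, `Z ⊗ 1`, `1 ⊗ X`, `1 ⊗ Z`: it is absolutely
irreducible, so an element commuting with `T` is scalar.
-/

set_option autoImplicit false

namespace Cfsg.Agent.H813.Hall

open Cfsg Matrix Cfsg.Agent.H125.Hall

/-- **Elements of order two commuting up to a central involution generate a 2-group.** -/
theorem isPGroup_closure {G : Type*} [Group G] {z : G} (hz : z * z = 1) (hzc : ∀ g : G, z * g = g * z) {S : Set G}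
    (h1 : ∀ x ∈ S, x * x = 1 ∨ x * x = z) (h2 : ∀ x ∈ S, ∀ y ∈ S, x * y = y * x ∨ x * y = z * (y * x)) :
    IsPGroup 2 (Subgroup.closure S) := by
  -- commuting up to `z` with a fixed element
  have key : ∀ (P : G → Prop) (y : G), (∀ x, P x → x * y = y * x ∨ x * y = z * (y * x)) →
      ∀ x ∈ Subgroup.closure {x | P x}, x * y = y * x ∨ x * y = z * (y * x) := by
    intro P y hP x hx
    induction hx using Subgroup.closure_induction with
    | mem x hx => exact hP x hx
    | one => left; rw [one_mul, mul_one]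
    | mul a b _ _ ha hb =>
      rcases ha with ha | ha <;> rcases hb with hb | hb
      · left; rw [mul_assoc, hb, ← mul_assoc, ha, mul_assoc]
      · right; rw [mul_assoc, hb, ← mul_assoc, ← hzc, mul_assoc, ← mul_assoc a, ha, mul_assoc]
      · right; rw [mul_assoc, hb, ← mul_assoc, ha]; simp only [mul_assoc]
      · left
        rw [mul_assoc, hb, ← mul_assoc, ← hzc, mul_assoc, ← mul_assoc a, ha, ← mul_assoc, ← mul_assoc, hz, one_mul,
          mul_assoc]
    | inv a _ ha =>
      rcases ha with ha | ha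
      · left; rw [inv_mul_eq_iff_eq_mul, ← mul_assoc, ha, mul_assoc, mul_inv_cancel, mul_one]
      · right
        rw [inv_mul_eq_iff_eq_mul, ← mul_assoc, ← hzc, mul_assoc, ← mul_assoc a, ha, ← mul_assoc z, ← mul_assoc z, hz,
          one_mul, mul_assoc, mul_inv_cancel, mul_one]
  have hcomm : ∀ x ∈ Subgroup.closure S, ∀ y ∈ Subgroup.closure S, x * y = y * x ∨ x * y = z * (y * x) := by
    intro x hx y hy
    refine key (fun x => x ∈ S) y (fun x hxS => ?_) x hx
    have h3 := key (fun y => y ∈ S) x (fun y hyS => by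
      rcases h2 x hxS y hyS with h | h
      · left; exact h.symm
      · right; rw [h, ← mul_assoc, hz, one_mul]) y hy
    rcases h3 with h | h
    · left; exact h.symm
    · right; rw [h, ← mul_assoc, hz, one_mul]
  have hsq : ∀ x ∈ Subgroup.closure S, x * x = 1 ∨ x * x = z := by
    intro x hx
    induction hx using Subgroup.closure_induction with
    | mem x hx => exact h1 x hx
    | one => left; rw [one_mul]
    | mul a b hax hbx ha hb =>
      have e1 : a * b * (a * b) = a * (b * a) * b := by group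
      rcases hcomm b hbx a hax with h | h
      · have e2 : a * b * (a * b) = (a * a) * (b * b) := by rw [e1, h]; group
        rw [e2]
        rcases ha with ha | ha <;> rcases hb with hb | hb <;> rw [ha, hb]
        · left; rw [one_mul]
        · right; rw [one_mul]
        · right; rw [mul_one]
        · left; exact hz
      · have e2 : a * b * (a * b) = z * ((a * a) * (b * b)) := by
          rw [e1, h, ← mul_assoc a z, ← hzc a]; group
        rw [e2]
        rcases ha with ha | ha <;> rcases hb with hb | hb <;> rw [ha, hb]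
        · right; rw [one_mul, mul_one]
        · left; rw [one_mul, hz]
        · left; rw [mul_one, hz]
        · right; rw [hz, mul_one]
    | inv a _ ha =>
      rw [← _root_.mul_inv_rev]
      rcases ha with ha | ha
      · left; rw [ha, inv_one]
      · right; rw [ha]; exact inv_eq_of_mul_eq_one_left hz
  rintro ⟨x, hx⟩
  refine ⟨2, Subtype.ext ?_⟩
  show x ^ (2 ^ 2) = 1
  rw [show (2 : ℕ) ^ 2 = 2 * 2 by norm_num, pow_mul, pow_two, pow_two]
  rcases hsq x hx with h | h
  · rw [h, one_mul]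
  · rw [h, hz]

section

variable (F : Type) [Field F]

/-- `X ⊗ 1` -/
def mA : Matrix (Fin 4) (Fin 4) F := !![0, 0, 1, 0; 0, 0, 0, 1; 1, 0, 0, 0; 0, 1, 0, 0]
/-- `1 ⊗ X` -/
def mC : Matrix (Fin 4) (Fin 4) F := !![0, 1, 0, 0; 1, 0, 0, 0; 0, 0, 0, 1; 0, 0, 1, 0]
/-- `Z ⊗ 1` -/
def mB : Matrix (Fin 4) (Fin 4) F := diagonal ![1, 1, -1, -1]
/-- `1 ⊗ Z` -/
def mD : Matrix (Fin 4) (Fin 4) F := diagonal ![1, -1, 1, -1]

theorem det_mA : (mA F).det = 1 := by
  simp [mA, Matrix.det_succ_row_zero, Fin.sum_univ_succ, Fin.succAbove]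

theorem det_mC : (mC F).det = 1 := by
  simp [mC, Matrix.det_succ_row_zero, Fin.sum_univ_succ, Fin.succAbove]

theorem det_mB : (mB F).det = 1 := by
  simp [mB, Fin.prod_univ_four]

theorem det_mD : (mD F).det = 1 := by
  simp [mD, Fin.prod_univ_four]

end

variable {F : Type} [Field F]

/-- a matrix commuting with the four matrices is scalar -/
theorem scalar_of (h2 : (2 : F) ≠ 0) {M : Matrix (Fin 4) (Fin 4) F} (hA : M * mA F = mA F * M) (hB : M * mB F = mB F * M)
    (hC : M * mC F = mC F * M) (hD : M * mD F = mD F * M) : M = M 0 0 • (1 : Matrix (Fin 4) (Fin 4) F) := by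
  have hne : ∀ x : F, x * -1 = x → x = 0 := by
    intro x hx
    have : 2 * x = 0 := by linear_combination -hx
    exact (mul_eq_zero.1 this).resolve_left h2
  have hz1 : ∀ x : F, x = -x → x = 0 := fun x hx => hne x (by rw [mul_neg_one]; exact hx.symm)
  have hz2 : ∀ x : F, -x = x → x = 0 := fun x hx => hne x (by rw [mul_neg_one]; exact hx)
  have eB : ∀ i j, M i j * (![1, 1, -1, -1] : Fin 4 → F) j = (![1, 1, -1, -1] : Fin 4 → F) i * M i j := by
    intro i j
    have := congrFun (congrFun hB i) j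
    rwa [mB, Matrix.mul_diagonal, Matrix.diagonal_mul] at this
  have eD : ∀ i j, M i j * (![1, -1, 1, -1] : Fin 4 → F) j = (![1, -1, 1, -1] : Fin 4 → F) i * M i j := by
    intro i j
    have := congrFun (congrFun hD i) j
    rwa [mD, Matrix.mul_diagonal, Matrix.diagonal_mul] at this
  have z : ∀ i j, i ≠ j → M i j = 0 := by
    intro i j hij
    have h1 := eB i j
    have h3 := eD i j
    fin_cases i <;> fin_cases j <;> first | exact absurd rfl hij | skip
    all_goals
      simp at h1 h3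
      first
        | exact hz1 _ h1 | exact hz2 _ h1 | exact hz1 _ h3 | exact hz2 _ h3
  have a0 : M 0 0 = M 2 2 := by
    have := congrFun (congrFun hA 0) 2
    simpa [mA, Matrix.mul_apply, Fin.sum_univ_four] using this
  have a1 : M 1 1 = M 3 3 := by
    have := congrFun (congrFun hA 1) 3
    simpa [mA, Matrix.mul_apply, Fin.sum_univ_four] using this
  have c0 : M 0 0 = M 1 1 := by
    have := congrFun (congrFun hC 0) 1
    simpa [mC, Matrix.mul_apply, Fin.sum_univ_four] using this
  ext i j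
  rw [Matrix.smul_apply, Matrix.one_apply, smul_eq_mul]
  split_ifs with h
  · subst h
    rw [mul_one]
    fin_cases i
    · rfl
    · exact c0.symm
    · exact a0.symm
    · exact (c0.trans a1).symm
  · rw [mul_zero]
    exact z i j h

theorem coreRow_four {p : ℕ} {G : Type*} [Group G] (φ : G →* Matrix.SpecialLinearGroup (Fin 4) F)
    (hφ : Function.Injective φ) (h2 : (2 : F) ≠ 0)
    (hA : ∃ g : G, (φ g : Matrix (Fin 4) (Fin 4) F) = mA F) (hB : ∃ g : G, (φ g : Matrix (Fin 4) (Fin 4) F) = mB F)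
    (hC : ∃ g : G, (φ g : Matrix (Fin 4) (Fin 4) F) = mC F) (hD : ∃ g : G, (φ g : Matrix (Fin 4) (Fin 4) F) = mD F)
    (hZ : ∃ g : G, (φ g : Matrix (Fin 4) (Fin 4) F) = -1) : CoreRow p G := by
  obtain ⟨A, hA⟩ := hA
  obtain ⟨B, hB⟩ := hB
  obtain ⟨C, hC⟩ := hC
  obtain ⟨D, hD⟩ := hD
  obtain ⟨z, hZ⟩ := hZ
  have hinj : ∀ x y : G, (φ x : Matrix (Fin 4) (Fin 4) F) = φ y → x = y := fun x y h => hφ (Subtype.ext h)
  have hm : ∀ x y : G, ((φ (x * y) : Matrix.SpecialLinearGroup (Fin 4) F) : Matrix (Fin 4) (Fin 4) F) =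
      (φ x : Matrix (Fin 4) (Fin 4) F) * (φ y : Matrix (Fin 4) (Fin 4) F) := by
    intro x y
    rw [map_mul, Matrix.SpecialLinearGroup.coe_mul]
  have h1 : ((φ (1 : G) : Matrix.SpecialLinearGroup (Fin 4) F) : Matrix (Fin 4) (Fin 4) F) = 1 := by
    rw [map_one, Matrix.SpecialLinearGroup.coe_one]
  have hz1 : z * z = 1 := hinj _ _ (by rw [hm, h1, hZ]; simp)
  have hzc : ∀ g : G, z * g = g * z := fun g => hinj _ _ (by rw [hm, hm, hZ]; simp)
  refine ⟨Subgroup.closure {A, B, C, D}, isPGroup_closure hz1 hzc ?_ ?_, ?_⟩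
  · intro x hx
    left
    rcases hx with rfl | rfl | rfl | rfl
    · apply hinj
      rw [hm, h1, hA, mA]
      ext i j
      fin_cases i <;> fin_cases j <;> simp [Matrix.mul_apply, Fin.sum_univ_four]
    · apply hinj
      rw [hm, h1, hB, mB]
      ext i j
      fin_cases i <;> fin_cases j <;> simp [Matrix.mul_apply, Fin.sum_univ_four]
    · apply hinj
      rw [hm, h1, hC, mC]
      ext i j
      fin_cases i <;> fin_cases j <;> simp [Matrix.mul_apply, Fin.sum_univ_four]
    · apply hinj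
      rw [hm, h1, hD, mD]
      ext i j
      fin_cases i <;> fin_cases j <;> simp [Matrix.mul_apply, Fin.sum_univ_four]
  · have eAB : A * B = z * (B * A) := hinj _ _ (by
      rw [hm, hm, hm, hZ, hA, hB, mA, mB]
      ext i j
      fin_cases i <;> fin_cases j <;> simp [Matrix.mul_apply, Fin.sum_univ_four])
    have eCD : C * D = z * (D * C) := hinj _ _ (by
      rw [hm, hm, hm, hZ, hC, hD, mC, mD]
      ext i j
      fin_cases i <;> fin_cases j <;> simp [Matrix.mul_apply, Fin.sum_univ_four])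
    have eAC : A * C = C * A := hinj _ _ (by
      rw [hm, hm, hA, hC, mA, mC]
      ext i j
      fin_cases i <;> fin_cases j <;> simp [Matrix.mul_apply, Fin.sum_univ_four])
    have eAD : A * D = D * A := hinj _ _ (by
      rw [hm, hm, hA, hD, mA, mD]
      ext i j
      fin_cases i <;> fin_cases j <;> simp [Matrix.mul_apply, Fin.sum_univ_four])
    have eBC : B * C = C * B := hinj _ _ (by
      rw [hm, hm, hB, hC, mB, mC]
      ext i j
      fin_cases i <;> fin_cases j <;> simp [Matrix.mul_apply, Fin.sum_univ_four])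
    have eBD : B * D = D * B := hinj _ _ (by
      rw [hm, hm, hB, hD, mB, mD]
      ext i j
      fin_cases i <;> fin_cases j <;> simp [Matrix.mul_apply, Fin.sum_univ_four])
    have sw : ∀ x y : G, x * y = z * (y * x) → y * x = z * (x * y) := by
      intro x y h
      rw [h, ← mul_assoc, hz1, one_mul]
    intro x hx y hy
    rcases hx with rfl | rfl | rfl | rfl <;> rcases hy with rfl | rfl | rfl | rfl
    · left; rfl
    · right; exact eAB
    · left; exact eAC
    · left; exact eAD
    · right; exact sw _ _ eAB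
    · left; rfl
    · left; exact eBC
    · left; exact eBD
    · left; exact eAC.symm
    · left; exact eBC.symm
    · left; rfl
    · right; exact eCD
    · left; exact eAD.symm
    · left; exact eBD.symm
    · right; exact sw _ _ eCD
    · left; rfl
  · intro H hTH _ g hg c _
    have hmem : ∀ x ∈ ({A, B, C, D} : Set G), g * x = x * g := fun x hx => hg x (Subgroup.subset_closure hx)
    have e : ∀ x ∈ ({A, B, C, D} : Set G), (φ g : Matrix (Fin 4) (Fin 4) F) * (φ x : Matrix (Fin 4) (Fin 4) F) =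
        (φ x : Matrix (Fin 4) (Fin 4) F) * (φ g : Matrix (Fin 4) (Fin 4) F) := by
      intro x hx
      rw [← hm, hmem x hx, hm]
    have hs := scalar_of h2 (M := (φ g : Matrix (Fin 4) (Fin 4) F)) (by rw [← hA]; exact e A (by simp))
      (by rw [← hB]; exact e B (by simp)) (by rw [← hC]; exact e C (by simp)) (by rw [← hD]; exact e D (by simp))
    apply hinj
    rw [hm, hm, hs, smul_mul_assoc, mul_smul_comm, one_mul, mul_one]

theorem two_ne {p : ℕ} [Fact p.Prime] [CharP F p] (hp : p ≠ 2) : (2 : F) ≠ 0 := by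
  intro h
  have h1 : ((2 : ℕ) : F) = 0 := by exact_mod_cast h
  rw [CharP.cast_eq_zero_iff F p] at h1
  exact hp ((Nat.prime_dvd_prime_iff_eq Fact.out Nat.prime_two).1 h1)

/-- **N4**, `SL_4` -/
theorem coreRow_sl_four [Fintype F] {p : ℕ} [Fact p.Prime] [CharP F p] (hp : p ≠ 2) :
    CoreRow p (Matrix.SpecialLinearGroup (Fin 4) F) :=
  coreRow_four (MonoidHom.id _) Function.injective_id (two_ne (F := F) hp)
    ⟨⟨mA F, det_mA F⟩, rfl⟩ ⟨⟨mB F, det_mB F⟩, rfl⟩ ⟨⟨mC F, det_mC F⟩, rfl⟩ ⟨⟨mD F, det_mD F⟩, rfl⟩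
    ⟨⟨-1, by rw [Matrix.det_neg, Matrix.det_one, Fintype.card_fin]; norm_num⟩, rfl⟩

/-- **N4**, `SU_4` -/
theorem coreRow_su_four [Fintype F] {p : ℕ} [Fact p.Prime] [CharP F p] (hp : p ≠ 2) {q : ℕ}
    (hq : Fintype.card F = q ^ 2) : CoreRow p (Cfsg.SU 4 F q) := by
  have hodd : Odd q := by
    by_contra hq2
    rw [Nat.not_odd_iff_even] at hq2
    have h1 : 2 ∣ Fintype.card F := by
      rw [hq]
      exact dvd_pow hq2.two_dvd (by norm_num)
    obtain ⟨n, hn, hc⟩ := FiniteField.card F p
    rw [hc] at h1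
    exact hp ((Nat.prime_dvd_prime_iff_eq Nat.prime_two hn).1 (Nat.prime_two.dvd_of_dvd_pow h1)).symm
  have hmem : ∀ M : Matrix.SpecialLinearGroup (Fin 4) F,
      (∀ u v : Fin 4 → F, hermForm 4 F q ((M : Matrix (Fin 4) (Fin 4) F).mulVec u)
        ((M : Matrix (Fin 4) (Fin 4) F).mulVec v) = hermForm 4 F q u v) → M ∈ Cfsg.SU 4 F q := fun M h => h
  refine coreRow_four (Cfsg.SU 4 F q).subtype (Subgroup.subtype_injective _) (two_ne (F := F) hp)
    ⟨⟨⟨mA F, det_mA F⟩, hmem _ ?_⟩, rfl⟩ ⟨⟨⟨mB F, det_mB F⟩, hmem _ ?_⟩, rfl⟩ ⟨⟨⟨mC F, det_mC F⟩, hmem _ ?_⟩, rfl⟩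
    ⟨⟨⟨mD F, det_mD F⟩, hmem _ ?_⟩, rfl⟩ ⟨⟨⟨-1, by rw [Matrix.det_neg, Matrix.det_one, Fintype.card_fin]; norm_num⟩, hmem _ ?_⟩, rfl⟩
  · intro u v
    simp only [hermForm, Fin.sum_univ_four, mA, Matrix.mulVec, dotProduct]
    simp
    ring
  · intro u v
    simp only [hermForm, Fin.sum_univ_four, mB, Matrix.mulVec_diagonal]
    simp [hodd.neg_pow]
  · intro u v
    simp only [hermForm, Fin.sum_univ_four, mC, Matrix.mulVec, dotProduct]
    simp
    ring
  · intro u v
    simp only [hermForm, Fin.sum_univ_four, mD, Matrix.mulVec_diagonal]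
    simp [hodd.neg_pow]
  · intro u v
    simp only [hermForm, Fin.sum_univ_four, Matrix.neg_mulVec, Matrix.one_mulVec]
    simp [hodd.neg_pow]

end Cfsg.Agent.H813.Hall
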